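import Cfsg.Agent.Lib.Amalgams.Qd
import Cfsg.Agent.Lib.CoprimeAction.Glauberman

/-!
Normalizers of characteristic subgroups of a Sylow `p`-subgroup of `Qd(p)`.
-/

set_option autoImplicit false
set_option linter.style.haveILetI false

open Matrix
open scoped MatrixGroups

namespace CfsgLib.Amalgams.Qd

open Cfsg

variable {p : ℕ} [hp : Fact p.Prime]

set_option quotPrecheck false in
local notation "G₀" => { x // x ∈ qdOver (ZMod p) }
local notation "A₂" => Matrix (Fin 2) (Fin 2) (ZMod p)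

/-- Upper unitriangular matrix of `SL₂`. -/
def ut (x : ZMod p) : SL(2, ZMod p) := ⟨!![1, x; 0, 1], by simp [Matrix.det_fin_two]⟩

theorem coe_ut (x : ZMod p) : (ut x : A₂) = !![1, x; 0, 1] := rfl

theorem ut_mul (x y : ZMod p) : ut x * ut y = ut (x + y) := by
  apply Subtype.ext
  rw [Matrix.SpecialLinearGroup.coe_mul, coe_ut, coe_ut, coe_ut]
  ext i j
  fin_cases i <;> fin_cases j <;> simp [Matrix.mul_apply, add_comm]

theorem ut_zero : ut (0 : ZMod p) = 1 := by
  apply Subtype.ext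
  rw [coe_ut]
  ext i j
  fin_cases i <;> fin_cases j <;> simp

theorem ut_inj {x y : ZMod p} (h : ut x = ut y) : x = y := by
  have := congrArg (fun z : SL(2, ZMod p) => (z : A₂) 0 1) h
  simpa [coe_ut] using this

/-- Coordinates of the unitriangular group. -/
def u (x c f : ZMod p) : G₀ := aff (ut x) c f

theorem u_mul (x c f x' c' f' : ZMod p) :
    u x c f * u x' c' f' = u (x + x') (c + c' + x * f') (f + f') := by
  rw [u, u, u, aff_mul, ut_mul, aff_inj]
  refine ⟨rfl, ?_, ?_⟩ <;> simp [coe_ut] <;> ring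

theorem u_inj {x c f x' c' f' : ZMod p} :
    u x c f = u x' c' f' ↔ x = x' ∧ c = c' ∧ f = f' := by
  rw [u, u, aff_inj]
  exact ⟨fun h => ⟨ut_inj h.1, h.2⟩, fun h => ⟨by rw [h.1], h.2⟩⟩

theorem u_zero : u (0 : ZMod p) 0 0 = 1 := by rw [u, ut_zero, aff_one]

/-- The unitriangular group. -/
def unitri : Subgroup G₀ where
  carrier := {M | ∃ x c f, M = u x c f}
  one_mem' := ⟨0, 0, 0, u_zero.symm⟩
  mul_mem' := by
    rintro _ _ ⟨x, c, f, rfl⟩ ⟨x', c', f', rfl⟩
    exact ⟨_, _, _, u_mul ..⟩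
  inv_mem' := by
    rintro _ ⟨x, c, f, rfl⟩
    refine ⟨-x, -c + x * f, -f, inv_eq_of_mul_eq_one_right ?_⟩
    rw [u_mul, ← u_zero, u_inj]
    refine ⟨?_, ?_, ?_⟩ <;> ring

theorem card_unitri : Nat.card (unitri (p := p)) = p ^ 3 := by
  let e : (ZMod p × ZMod p) × ZMod p ≃ unitri (p := p) :=
    Equiv.ofBijective (fun t => ⟨u t.1.1 t.1.2 t.2, ⟨_, _, _, rfl⟩⟩)
      ⟨fun s t h => by
        obtain ⟨h1, h2, h3⟩ := u_inj.1 (congrArg Subtype.val h)
        exact Prod.ext (Prod.ext h1 h2) h3, by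
        rintro ⟨_, x, c, f, rfl⟩
        exact ⟨((x, c), f), rfl⟩⟩
  rw [← Nat.card_congr e, Nat.card_prod, Nat.card_prod, Nat.card_zmod]
  ring

theorem card_qdOver_factorization : (Nat.card G₀).factorization p = 3 := by
  have hq := Nat.card_zmod p
  rw [card_qdOver, CfsgLib.SL2.card_SL, hq]
  have hp2 := hp.out.two_le
  have h1 : 0 < p ^ 2 - 1 := Nat.sub_pos_of_lt (Nat.one_lt_pow (by norm_num) hp.out.one_lt)
  have h2 : ¬ p ∣ p ^ 2 - 1 := fun h => by
    have h3 : p ∣ p ^ 2 - 1 + 1 := by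
      rw [Nat.sub_add_cancel (Nat.one_le_pow _ _ hp.out.pos)]
      exact dvd_pow_self p two_ne_zero
    exact hp.out.not_dvd_one ((Nat.dvd_add_right h).1 h3)
  rw [show p * (p ^ 2 - 1) * p * p = p ^ 3 * (p ^ 2 - 1) by ring,
    Nat.factorization_mul (pow_ne_zero _ hp.out.ne_zero) h1.ne', hp.out.factorization_pow]
  simp [Nat.factorization_eq_zero_of_not_dvd h2]

/-- The standard Sylow `p`-subgroup. -/
noncomputable def stdSylow : Sylow p G₀ :=
  Sylow.ofCard unitri (by rw [card_unitri, card_qdOver_factorization])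

theorem exists_eq_aff_of_lin {M : G₀} {A : SL(2, ZMod p)} (h : lin M = A) :
    ∃ c f, M = aff A c f := by
  obtain ⟨B, c, f, rfl⟩ := exists_eq_aff M
  rw [lin_aff] at h
  exact ⟨c, f, by rw [h]⟩

/-- Borel elements normalize the unitriangular group. -/
theorem mem_normalizer_unitri {g : G₀} (h : (lin g : A₂) 1 0 = 0) :
    g ∈ Subgroup.normalizer ((unitri (p := p)) : Set G₀) := by
  refine CfsgLib.CoprimeAction.mem_normalizer_of_conj_mem ?_
  rintro _ ⟨x, c, f, rfl⟩
  have hd := CfsgLib.SL2.det_eq (lin g)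
  have hA : lin g * ut x = ut ((lin g : A₂) 0 0 * (lin g : A₂) 0 0 * x) * lin g := by
    apply Subtype.ext
    rw [Matrix.SpecialLinearGroup.coe_mul, Matrix.SpecialLinearGroup.coe_mul, coe_ut, coe_ut]
    rw [h] at hd
    ext i j
    fin_cases i <;> fin_cases j <;> simp [Matrix.mul_apply, h]
    linear_combination (-(lin g : A₂) 0 0 * x) * hd
  have hl : lin (g * u x c f * g⁻¹) = ut ((lin g : A₂) 0 0 * (lin g : A₂) 0 0 * x) := by
    rw [map_mul, map_mul, map_inv, u, lin_aff, hA, mul_inv_cancel_right]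
  obtain ⟨c', f', h'⟩ := exists_eq_aff_of_lin hl
  exact ⟨_, c', f', h'⟩

variable (T : Subgroup (unitri (p := p)))

omit hp in
theorem conj_comm_mem {G : Type*} [Group G] {U : Subgroup G} (T : Subgroup U) [T.Normal]
    {t s w : G} (ht : t ∈ T.map U.subtype) (hs : s ∈ U) (hw : s * t = w * (t * s)) :
    w ∈ T.map U.subtype := by
  obtain ⟨t₀, ht₀, rfl⟩ := ht
  refine ⟨⟨s, hs⟩ * t₀ * (⟨s, hs⟩ : U)⁻¹ * t₀⁻¹,
    mul_mem ((inferInstance : T.Normal).conj_mem t₀ ht₀ _) (inv_mem ht₀), ?_⟩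
  show s * (t₀ : G) * s⁻¹ * (t₀ : G)⁻¹ = w
  rw [show s * (t₀ : G) = w * ((t₀ : G) * s) from hw]
  group

theorem center_mem [T.Normal] (hT : T ≠ ⊥) (c : ZMod p) :
    u 0 c 0 ∈ T.map (unitri (p := p)).subtype := by
  have hscale : ∀ e : ZMod p, e ≠ 0 → u 0 e 0 ∈ T.map (unitri (p := p)).subtype →
      u 0 c 0 ∈ T.map (unitri (p := p)).subtype := by
    intro e he h
    have key : ∀ n : ℕ, u 0 e 0 ^ n = u 0 ((n : ZMod p) * e) 0 := by
      intro n
      rw [u, ut_zero, trans_pow, u, ut_zero]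
      simp
    have := pow_mem h (c / e).val
    rwa [key, ZMod.natCast_zmod_val, div_mul_cancel₀ c he] at this
  obtain ⟨t, ht, ht1⟩ := T.bot_or_exists_ne_one.resolve_left hT
  obtain ⟨x, c₀, f₀, he⟩ := t.2
  have htm : u x c₀ f₀ ∈ T.map (unitri (p := p)).subtype := ⟨t, ht, he⟩
  by_cases hx : x = 0
  · subst hx
    by_cases hf : f₀ = 0
    · subst hf
      refine hscale c₀ (fun hc => ht1 (Subtype.ext ?_)) htm
      rw [he, hc, u_zero]; rfl
    · refine hscale f₀ hf (conj_comm_mem T htm (s := u 1 0 0) ⟨_, _, _, rfl⟩ ?_)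
      rw [u_mul, u_mul, u_mul, u_inj]
      refine ⟨?_, ?_, ?_⟩ <;> ring
  · refine hscale (-x) (neg_ne_zero.2 hx) (conj_comm_mem T htm (s := u 0 0 1) ⟨_, _, _, rfl⟩ ?_)
    rw [u_mul, u_mul, u_mul, u_inj]
    refine ⟨?_, ?_, ?_⟩ <;> ring

/-- Matrix entries. -/
def ent (M : G₀) (i j : Fin 3) : ZMod p :=
  (((M : SL(3, ZMod p))) : Matrix (Fin 3) (Fin 3) (ZMod p)) i j

/-- The exchange of the two maximal abelian subgroups, as a function. -/
def flipFun (M : G₀) : G₀ := u (ent M 1 2) (ent M 0 1 * ent M 1 2 - ent M 0 2) (ent M 0 1)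

theorem flipFun_u (x c f : ZMod p) : flipFun (u x c f) = u f (x * f - c) x := by
  simp [flipFun, ent, u, coe_aff, coe_ut]

/-- The automorphism exchanging the two maximal abelian subgroups. -/
noncomputable def flipHom : unitri (p := p) ≃* unitri (p := p) :=
  MulEquiv.ofBijective
    (MonoidHom.mk' (fun M : unitri (p := p) => (⟨flipFun (M : G₀), _, _, _, rfl⟩ : unitri (p := p))) (by
      rintro ⟨_, x, c, f, rfl⟩ ⟨_, x', c', f', rfl⟩
      apply Subtype.ext
      show flipFun (u x c f * u x' c' f') = flipFun (u x c f) * flipFun (u x' c' f')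
      rw [u_mul, flipFun_u, flipFun_u, flipFun_u, u_mul, u_inj]
      refine ⟨rfl, ?_, rfl⟩
      ring))
    (Function.Involutive.bijective (by
      rintro ⟨_, x, c, f, rfl⟩
      apply Subtype.ext
      show flipFun (flipFun (u x c f)) = u x c f
      rw [flipFun_u, flipFun_u, u_inj]
      refine ⟨rfl, ?_, rfl⟩
      ring))

theorem flipHom_apply (x c f : ZMod p) (h : u x c f ∈ unitri (p := p)) :
    ((flipHom ⟨u x c f, h⟩ : unitri (p := p)) : G₀) = u f (x * f - c) x :=
  flipFun_u x c f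

theorem lin_eq_of_mem_normalizer [hTc : T.Characteristic] (hT : T ≠ ⊥) {g : G₀}
    (hg : g ∈ Subgroup.normalizer ((T.map (unitri (p := p)).subtype : Subgroup G₀) : Set G₀)) :
    (lin g : A₂) 1 0 = 0 := by
  by_contra hne
  obtain ⟨A, a, b, rfl⟩ := exists_eq_aff g
  rw [lin_aff] at hne
  have hx : ∀ x c f, u x c f ∈ T.map (unitri (p := p)).subtype → x = 0 := by
    intro x c f h
    obtain ⟨t', -, h'⟩ := (Subgroup.mem_normalizer_iff.1 hg _).1 h
    obtain ⟨y, c', f', hy⟩ := t'.2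
    have h2 : lin (aff A a b * u x c f * (aff A a b)⁻¹) = ut y := by
      rw [← h']
      show lin (t' : G₀) = _
      rw [hy, u, lin_aff]
    rw [map_mul, map_mul, map_inv, lin_aff, u, lin_aff, mul_inv_eq_iff_eq_mul] at h2
    have h3 := congrArg (fun z : SL(2, ZMod p) => (z : A₂) 1 1) h2
    simp [Matrix.SpecialLinearGroup.coe_mul, Matrix.mul_apply, coe_ut] at h3
    rcases h3 with h3 | h3
    · exact absurd h3 hne
    · exact h3
  have hV : ∀ c f, u 0 c f ∈ T.map (unitri (p := p)).subtype := by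
    intro c f
    have h1 := (Subgroup.mem_normalizer_iff.1 hg _).1 (center_mem T hT (f / (A : A₂) 1 0))
    rw [show u 0 (f / (A : A₂) 1 0) 0 = aff 1 (f / (A : A₂) 1 0) (0 : ZMod p) by rw [u, ut_zero],
      aff_conj_trans] at h1
    have h2 := mul_mem h1 (center_mem T hT (c - (A : A₂) 0 0 * (f / (A : A₂) 1 0)))
    rw [u, ut_zero, trans_mul] at h2
    rw [u, ut_zero]
    convert h2 using 2
    · ring
    · field_simp
      ring
  obtain ⟨t, ht, he⟩ := hV 0 1
  have h2 : flipHom t ∈ T := by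
    have := Subgroup.characteristic_iff_le_comap.1 hTc flipHom ht
    exact this
  have h3 : u 1 0 0 ∈ T.map (unitri (p := p)).subtype := by
    refine ⟨flipHom t, h2, ?_⟩
    have : t = ⟨u 0 0 1, ⟨_, _, _, rfl⟩⟩ := Subtype.ext he
    rw [this]
    show ((flipHom _ : unitri (p := p)) : G₀) = _
    exact (flipHom_apply _ _ _ _).trans (by simp)
  exact one_ne_zero (hx _ _ _ h3)

theorem normalizer_characteristic_unitri [T.Characteristic] (hT : T ≠ ⊥) :
    Subgroup.normalizer ((T.map (unitri (p := p)).subtype : Subgroup G₀) : Set G₀) =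
      Subgroup.normalizer ((unitri (p := p)) : Set G₀) ∧
    Subgroup.normalizer ((unitri (p := p)) : Set G₀) ≠ ⊤ := by
  have hle := CfsgLib.Cores.normalizer_le_normalizer_map_subtype (unitri (p := p)) T
  refine ⟨le_antisymm (fun g hg => mem_normalizer_unitri (lin_eq_of_mem_normalizer T hT hg)) hle,
    fun h => ?_⟩
  let w : SL(2, ZMod p) := ⟨!![0, -1; 1, 0], by simp [Matrix.det_fin_two]⟩
  have := lin_eq_of_mem_normalizer T hT (g := aff w 0 0) (hle (h ▸ Subgroup.mem_top _))
  rw [lin_aff] at this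
  simp [w] at this

theorem normalizer_characteristic (S : Sylow p G₀) (T : Subgroup (S : Subgroup G₀)) (hT : T ≠ ⊥)
    (hTc : T.Characteristic) :
    Subgroup.normalizer ((T.map (S : Subgroup G₀).subtype : Subgroup G₀) : Set G₀) =
      Subgroup.normalizer ((S : Subgroup G₀) : Set G₀) ∧
    Subgroup.normalizer ((S : Subgroup G₀) : Set G₀) ≠ ⊤ := by
  obtain ⟨g, hg⟩ := MulAction.exists_smul_eq G₀ (stdSylow (p := p)) S
  have hS : (unitri (p := p)).map (MulAut.conj g).toMonoidHom = (S : Subgroup G₀) := by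
    rw [← hg, Sylow.coe_subgroup_smul]
    rfl
  let e : unitri (p := p) ≃* (S : Subgroup G₀) :=
    ((unitri (p := p)).equivMapOfInjective _ (MulEquiv.injective (MulAut.conj g))).trans
      (MulEquiv.subgroupCongr hS)
  have hc : (T.comap e.toMonoidHom).Characteristic := by
    refine Subgroup.characteristic_iff_comap_eq.2 fun φ => ?_
    ext x
    have h := SetLike.ext_iff.1
      (Subgroup.characteristic_iff_comap_eq.1 hTc ((e.symm.trans φ).trans e)) (e x)
    simpa using h
  have hne : T.comap e.toMonoidHom ≠ ⊥ := fun h => hT (by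
    rw [eq_bot_iff]
    intro y hy
    have : e.symm y ∈ T.comap e.toMonoidHom := by simpa using hy
    rw [h, Subgroup.mem_bot] at this
    simpa using congrArg e this)
  obtain ⟨h1, h2⟩ := normalizer_characteristic_unitri (T.comap e.toMonoidHom) (hT := hne)
  have hmap : ((T.comap e.toMonoidHom).map (unitri (p := p)).subtype).map
      (MulAut.conj g).toMonoidHom = T.map (S : Subgroup G₀).subtype := by
    ext y
    constructor
    · rintro ⟨_, ⟨x, hx, rfl⟩, rfl⟩
      exact ⟨e x, hx, rfl⟩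
    · rintro ⟨x, hx, rfl⟩
      refine ⟨_, ⟨e.symm x, by simpa using hx, rfl⟩, ?_⟩
      exact congrArg Subtype.val (e.apply_symm_apply x)
  have hb := MulEquiv.bijective (MulAut.conj g)
  have hN : (Subgroup.normalizer ((unitri (p := p)) : Set G₀)).map (MulAut.conj g).toMonoidHom =
      Subgroup.normalizer ((S : Subgroup G₀) : Set G₀) :=
    (Subgroup.map_normalizer_eq_of_bijective _ hb).trans (congrArg (fun K : Subgroup G₀ =>
      Subgroup.normalizer (K : Set G₀)) hS)
  refine ⟨?_, fun h => h2 ?_⟩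
  · rw [← hN, ← hmap, ← Subgroup.map_normalizer_eq_of_bijective _ hb, h1]
  · rw [← hN] at h
    exact Subgroup.map_injective hb.1 (h.trans (Subgroup.map_top_of_surjective _ hb.2).symm)

end CfsgLib.Amalgams.Qd
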