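/-
A Sylow 2-subgroup with a quaternion direct factor whose complement has all involutions central:
some central involution is isolated.
-/
import Cfsg.Prelude.Def_TwoFusion
import Mathlib.GroupTheory.Sylow
import Mathlib.GroupTheory.SpecificGroups.Quaternion

set_option autoImplicit false

open Cfsg Subgroup

namespace CfsgLib.Amalgams

theorem quaternion_sq_eq_one {k : ℕ} [NeZero k] {x : QuaternionGroup k} (hx : x ^ 2 = 1) :
    x = 1 ∨ x = QuaternionGroup.a (k : ZMod (2 * k)) := by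
  cases x with
  | a i =>
    rw [pow_two, QuaternionGroup.a_mul_a, QuaternionGroup.one_def, QuaternionGroup.a.injEq] at hx
    have h2 : ((i.val + i.val : ℕ) : ZMod (2 * k)) = 0 := by
      push_cast; rw [ZMod.natCast_zmod_val]; exact hx
    rw [ZMod.natCast_eq_zero_iff] at h2
    have hlt : i.val < 2 * k := ZMod.val_lt i
    obtain ⟨c, hc⟩ := h2
    have : i.val = 0 ∨ i.val = k := by
      rcases Nat.lt_or_ge c 1 with h | h
      · left; have : c = 0 := by omega
        subst this; omega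
      · right; have : c < 2 := by
          by_contra h'
          have : 2 * k * 2 ≤ 2 * k * c := Nat.mul_le_mul_left _ (by omega)
          omega
        have : c = 1 := by omega
        subst this; omega
    rcases this with h | h
    · left; rw [QuaternionGroup.one_def]; congr 1
      exact (ZMod.val_eq_zero i).1 h
    · right; congr 1; exact (ZMod.natCast_zmod_val i).symm.trans (congrArg Nat.cast h)
  | xa i =>
    exfalso
    have h := QuaternionGroup.orderOf_xa i
    have h2 := orderOf_dvd_of_pow_eq_one hx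
    rw [h] at h2
    exact absurd (Nat.le_of_dvd (by norm_num) h2) (by norm_num)

theorem quaternion_not_comm {k : ℕ} (hk : 2 ≤ k) :
    (QuaternionGroup.a (1 : ZMod (2 * k))) * QuaternionGroup.xa 0 ≠
      QuaternionGroup.xa 0 * QuaternionGroup.a (1 : ZMod (2 * k)) := by
  rw [QuaternionGroup.a_mul_xa, QuaternionGroup.xa_mul_a]
  intro h
  rw [QuaternionGroup.xa.injEq] at h
  have h2 : ((2 : ℕ) : ZMod (2 * k)) = 0 := by
    have h3 : (0 : ZMod (2 * k)) - 1 = 0 + 1 := h
    rw [zero_sub, zero_add] at h3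
    calc ((2 : ℕ) : ZMod (2 * k)) = 1 + 1 := by rw [Nat.cast_ofNat, one_add_one_eq_two]
      _ = -1 + 1 := by rw [h3]
      _ = 0 := neg_add_cancel 1
  rw [ZMod.natCast_eq_zero_iff] at h2
  have := Nat.le_of_dvd (by norm_num) h2
  omega

variable {G : Type*} [Group G] [Finite G]

/-- If a Sylow 2-subgroup is `Q × R` with `Q` generalised quaternion and all involutions of `R`
central in `R`, some involution of `S` has no other conjugate in `S`. -/
theorem exists_isolated_of_quaternion_factor (S : Sylow 2 G) (Q R : Subgroup G)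
    (hQR : IsInternalDirectProduct Q R (S : Subgroup G)) (n : ℕ) (hn : 1 ≤ n)
    (eQ : ↥Q ≃* QuaternionGroup (2 ^ n))
    (hR : ∀ r ∈ R, orderOf r = 2 → ∀ s ∈ R, r * s = s * r) :
    ∃ w : G, orderOf w = 2 ∧ w ∈ (S : Subgroup G) ∧
      ∀ g : G, g * w * g⁻¹ ∈ (S : Subgroup G) → g * w * g⁻¹ = w := by
  classical
  haveI : Fact (Nat.Prime 2) := ⟨Nat.prime_two⟩
  have hk : 2 ≤ 2 ^ n := le_trans (by norm_num) (Nat.pow_le_pow_right (by norm_num : 0 < 2) hn)
  haveI : NeZero (2 ^ n) := ⟨by positivity⟩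
  obtain ⟨hQS, hRS, hcom, hinf, hsup⟩ := hQR
  have hRQ : R ≤ centralizer (Q : Set G) := fun r hr q hq => hcom q hq r hr
  have hdec : ∀ x ∈ (S : Subgroup G), ∃ q ∈ Q, ∃ r ∈ R, x = q * r := by
    intro x hx
    rw [← hsup] at hx
    have : x ∈ ((Q ⊔ R : Subgroup G) : Set G) := hx
    rw [coe_mul_of_left_le_normalizer_right Q R ?_] at this
    · obtain ⟨q, hq, r, hr, rfl⟩ := this
      exact ⟨q, hq, r, hr, rfl⟩
    · exact (le_centralizer_iff.1 hRQ).trans (centralizer_le_normalizer _)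
  have huniq : ∀ q ∈ Q, ∀ r ∈ R, ∀ q' ∈ Q, ∀ r' ∈ R, q * r = q' * r' → q = q' ∧ r = r' := by
    intro q hq r hr q' hq' r' hr' h
    have h1 : q'⁻¹ * q = r' * r⁻¹ := by
      calc q'⁻¹ * q = q'⁻¹ * (q * r) * r⁻¹ := by group
        _ = r' * r⁻¹ := by rw [h]; group
    have h2 : q'⁻¹ * q ∈ Q ⊓ R :=
      mem_inf.2 ⟨mul_mem (inv_mem hq') hq, h1 ▸ mul_mem hr' (inv_mem hr)⟩
    rw [hinf, mem_bot, inv_mul_eq_one] at h2
    subst h2
    exact ⟨rfl, mul_left_cancel h⟩
  -- the central involution of `Q`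
  obtain ⟨z0, hz0⟩ : ∃ z : QuaternionGroup (2 ^ n),
      z = QuaternionGroup.a ((2 ^ n : ℕ) : ZMod (2 * 2 ^ n)) := ⟨_, rfl⟩
  let z : G := (eQ.symm z0 : Q)
  have hzQ : z ∈ Q := (eQ.symm z0).2
  have hz0ne : z0 ≠ 1 := by
    rw [hz0, QuaternionGroup.one_def, Ne, QuaternionGroup.a.injEq, ZMod.natCast_eq_zero_iff]
    intro h
    have := Nat.le_of_dvd (by positivity) h
    have : 0 < 2 ^ n := by positivity
    omega
  have hz02 : z0 ^ 2 = 1 := by
    rw [hz0, pow_two, QuaternionGroup.a_mul_a, QuaternionGroup.one_def, QuaternionGroup.a.injEq,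
      ← Nat.cast_add, ZMod.natCast_eq_zero_iff]
    exact ⟨1, by omega⟩
  have hQinv : ∀ q ∈ Q, q ^ 2 = 1 → q = 1 ∨ q = z := by
    intro q hq h2
    have h : (eQ ⟨q, hq⟩) ^ 2 = 1 := by
      rw [← map_pow, show (⟨q, hq⟩ : Q) ^ 2 = 1 from Subtype.ext h2, map_one]
    rcases quaternion_sq_eq_one h with h | h
    · left
      exact congrArg Subtype.val (eQ.map_eq_one_iff.1 h)
    · right
      show q = ((eQ.symm z0 : Q) : G)
      rw [hz0, ← h, eQ.symm_apply_apply]
  have hz2 : z ^ 2 = 1 := by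
    show (((eQ.symm z0 : Q) : G)) ^ 2 = 1
    rw [← SubmonoidClass.coe_pow, ← map_pow, hz02, map_one, OneMemClass.coe_one]
  have hzne : z ≠ 1 := by
    intro h
    apply hz0ne
    rw [← eQ.apply_symm_apply z0, show eQ.symm z0 = 1 from Subtype.ext h, map_one]
  have hzc : ∀ q ∈ Q, q * z = z * q := by
    intro q hq
    rcases hQinv (q * z * q⁻¹) (mul_mem (mul_mem hq hzQ) (inv_mem hq)) (by
      rw [conj_pow, hz2, mul_one, mul_inv_cancel]) with h | h
    · exact absurd (conj_eq_one_iff.1 h) hzne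
    · exact mul_inv_eq_iff_eq_mul.1 h
  obtain ⟨qa, hqa, qb, hqb, hqab⟩ : ∃ qa ∈ Q, ∃ qb ∈ Q, qa * qb ≠ qb * qa :=
    ⟨_, (eQ.symm (QuaternionGroup.a 1)).2, _, (eQ.symm (QuaternionGroup.xa 0)).2, fun h => by
      have h' : eQ.symm (QuaternionGroup.a 1) * eQ.symm (QuaternionGroup.xa 0) =
          eQ.symm (QuaternionGroup.xa 0) * eQ.symm (QuaternionGroup.a 1) := Subtype.ext h
      rw [← map_mul, ← map_mul] at h'
      exact quaternion_not_comm hk (eQ.symm.injective h')⟩
  -- every involution of `S` is central in `S`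
  have hcent : ∀ x ∈ (S : Subgroup G), x ^ 2 = 1 → ∀ s ∈ (S : Subgroup G), s * x = x * s := by
    intro x hx h2 s hs
    obtain ⟨q, hq, r, hr, rfl⟩ := hdec x hx
    obtain ⟨q', hq', r', hr', rfl⟩ := hdec s hs
    have hc : Commute q r := hcom q hq r hr
    rw [hc.mul_pow] at h2
    obtain ⟨hq2, hr2⟩ := huniq _ (pow_mem hq 2) _ (pow_mem hr 2) 1 (one_mem _) 1 (one_mem _)
      (by rw [h2, mul_one])
    have c1 : Commute q' q := by
      rcases hQinv q hq hq2 with rfl | rfl
      · exact Commute.one_right q'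
      · exact hzc q' hq'
    have c2 : Commute r' r := by
      by_cases h1 : r = 1
      · subst h1; exact Commute.one_right r'
      · exact (hR r hr (orderOf_eq_prime hr2 h1) r' hr').symm
    have c3 : Commute q' r := hcom q' hq' r hr
    have c4 : Commute r' q := (hcom q hq r' hr').symm
    exact ((c1.mul_right c3).mul_left (c4.mul_right c2)).eq
  set N := normalizer ((S : Subgroup G) : Set G)
  set O : Finset G := (Set.toFinite {x : G | ∃ m ∈ N, x = m * z * m⁻¹}).toFinset with hO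
  have hmemO : ∀ x, x ∈ O ↔ ∃ m ∈ N, x = m * z * m⁻¹ := fun x => by simp [hO]
  have hzO : z ∈ O := (hmemO z).2 ⟨1, one_mem _, by simp⟩
  have hOS : ∀ x ∈ O, x ∈ (S : Subgroup G) ∧ x ^ 2 = 1 := by
    intro x hx
    obtain ⟨m, hm, rfl⟩ := (hmemO x).1 hx
    exact ⟨(mem_normalizer_iff.1 hm z).1 (hQS hzQ), by
      rw [conj_pow, hz2, mul_one, mul_inv_cancel]⟩
  -- an orbit element other than `z` lies in `R`
  have key : ∀ x ∈ O, x ≠ z → x ∈ R := by
    intro x hx hxz
    obtain ⟨hxS, hx2⟩ := hOS x hx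
    obtain ⟨m, hm, hxm⟩ := (hmemO x).1 hx
    obtain ⟨q, hq, r, hr, hqr⟩ := hdec x hxS
    by_cases hq1 : q = 1
    · rw [hqr, hq1, one_mul]; exact hr
    exfalso
    have hmS : ∀ y ∈ Q, m * y * m⁻¹ ∈ (S : Subgroup G) := fun y hy =>
      (mem_normalizer_iff.1 hm y).1 (hQS hy)
    -- `m Q m⁻¹` is normalised by `Q`
    have hQn : ∀ y ∈ Q, ∀ s ∈ (S : Subgroup G), s * y * s⁻¹ ∈ Q := by
      intro y hy s hs
      obtain ⟨q', hq', r', hr', rfl⟩ := hdec s hs
      have : q' * r' * y * (q' * r')⁻¹ = q' * y * q'⁻¹ := by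
        rw [mul_assoc q', ← hcom y hy r' hr']
        group
      rw [this]
      exact mul_mem (mul_mem hq' hy) (inv_mem hq')
    -- the only involution of `m Q m⁻¹` is `x`
    have hinv1 : ∀ y ∈ Q, (m * y * m⁻¹) ^ 2 = 1 → m * y * m⁻¹ = 1 ∨ m * y * m⁻¹ = x := by
      intro y hy h
      rw [conj_pow, conj_eq_one_iff] at h
      rcases hQinv y hy h with rfl | rfl
      · left; simp
      · right; exact hxm.symm
    -- a nontrivial element of `m Q m⁻¹` in `Q` or `R` forces `x` to lie there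
    have hpow : ∀ (T : Subgroup G), ∀ y ∈ Q, y ≠ 1 → m * y * m⁻¹ ∈ T → x ∈ T := by
      intro T y hy hy1 hyT
      obtain ⟨j, hj⟩ := S.2.to_le hQS ⟨y, hy⟩
      have hj' : y ^ 2 ^ j = 1 := by simpa using congrArg Subtype.val hj
      have hex : ∃ i, y ^ 2 ^ i = 1 := ⟨j, hj'⟩
      have hi0 : Nat.find hex ≠ 0 := by
        intro h0
        have := Nat.find_spec hex
        rw [h0, pow_zero, pow_one] at this
        exact hy1 this
      obtain ⟨i, hi⟩ := Nat.exists_eq_succ_of_ne_zero hi0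
      have hlast : y ^ 2 ^ i ≠ 1 := Nat.find_min hex (by omega)
      have hspec := Nat.find_spec hex
      rw [hi, pow_succ, pow_mul] at hspec
      rcases hQinv _ (pow_mem hy _) hspec with h | h
      · exact absurd h hlast
      · rw [hxm, ← h, ← conj_pow]
        exact pow_mem hyT _
    -- if `m Q m⁻¹` met `Q` trivially it would centralise `Q`
    by_cases hQ1 : ∃ y ∈ Q, y ≠ 1 ∧ m * y * m⁻¹ ∈ Q
    · obtain ⟨y, hy, hy1, hyQ⟩ := hQ1
      rcases hQinv x (hpow Q y hy hy1 hyQ) hx2 with h | h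
      · exact hzne (conj_eq_one_iff.1 (hxm ▸ h))
      · exact hxz h
    push Not at hQ1
    have hcQ : ∀ y ∈ Q, ∀ u ∈ Q, u * (m * y * m⁻¹) = (m * y * m⁻¹) * u := by
      intro y hy u hu
      set y1 := m * y * m⁻¹ with hy1
      have h1 : u * y1 * u⁻¹ * y1⁻¹ ∈ Q := by
        have := mul_mem hu (hQn u⁻¹ (inv_mem hu) y1 (hmS y hy))
        simpa [mul_assoc] using this
      have hu' : m⁻¹ * u * m ∈ (S : Subgroup G) := by
        have := (mem_normalizer_iff.1 (inv_mem hm) u).1 (hQS hu)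
        rwa [inv_inv] at this
      have h2 : u * y1 * u⁻¹ * y1⁻¹ = m * ((m⁻¹ * u * m) * y * (m⁻¹ * u * m)⁻¹ * y⁻¹) * m⁻¹ := by
        rw [hy1]; group
      have hyQ' : (m⁻¹ * u * m) * y * (m⁻¹ * u * m)⁻¹ * y⁻¹ ∈ Q :=
        mul_mem (hQn y hy _ hu') (inv_mem hy)
      by_contra hne
      refine hQ1 _ hyQ' ?_ (h2 ▸ h1)
      intro h
      apply hne
      rw [h, mul_one, mul_inv_cancel] at h2
      exact mul_inv_eq_iff_eq_mul.1 (mul_inv_eq_one.1 h2)
    -- then conjugation of `qa` and `qb` gives commuting elements, modulo `R`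
    have hcen : ∀ y ∈ Q, ∃ a ∈ Q, ∃ b ∈ R, m * y * m⁻¹ = a * b ∧ ∀ u ∈ Q, u * a = a * u := by
      intro y hy
      obtain ⟨a, ha, b, hb, hab⟩ := hdec _ (hmS y hy)
      refine ⟨a, ha, b, hb, hab, fun u hu => ?_⟩
      have h := hcQ y hy u hu
      rw [hab, ← mul_assoc, mul_assoc a b u, ← hcom u hu b hb, ← mul_assoc] at h
      exact mul_right_cancel h
    obtain ⟨a, ha, b, hb, hab, hac⟩ := hcen qa hqa
    obtain ⟨a', ha', b', hb', hab', hac'⟩ := hcen qb hqb
    -- the commutator of the images lies in `R`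
    have hcR : m * (qa * qb * qa⁻¹ * qb⁻¹) * m⁻¹ = b * b' * b⁻¹ * b'⁻¹ := by
      have e1 : m * (qa * qb * qa⁻¹ * qb⁻¹) * m⁻¹ = (m * qa * m⁻¹) * (m * qb * m⁻¹) *
          (m * qa * m⁻¹)⁻¹ * (m * qb * m⁻¹)⁻¹ := by group
      rw [e1, hab, hab']
      have c1 : Commute a b' := hcom a ha b' hb'
      have c2 : Commute a' b := hcom a' ha' b hb
      have c3 : Commute a a' := hac' a ha
      have c4 : Commute a b := hcom a ha b hb
      have c5 : Commute a' b' := hcom a' ha' b' hb'
      have e2 : a * b * (a' * b') = (a * a') * (b * b') := c2.symm.mul_mul_mul_comm a b'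
      have e3 : a' * b' * (a * b) = (a * a') * (b' * b) := by
        rw [c1.symm.mul_mul_mul_comm a' b, c3.eq]
      calc a * b * (a' * b') * (a * b)⁻¹ * (a' * b')⁻¹
          = (a * b * (a' * b')) * (a' * b' * (a * b))⁻¹ := by group
        _ = (a * a') * (b * b' * b⁻¹ * b'⁻¹) * (a * a')⁻¹ := by rw [e2, e3]; group
        _ = b * b' * b⁻¹ * b'⁻¹ := by
          have hh : Commute (a * a') (b * b' * b⁻¹ * b'⁻¹) :=
            hcom _ (mul_mem ha ha') _
              (mul_mem (mul_mem (mul_mem hb hb') (inv_mem hb)) (inv_mem hb'))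
          rw [hh.eq, mul_inv_cancel_right]
    have hxR : x ∈ R := by
      refine hpow R (qa * qb * qa⁻¹ * qb⁻¹)
        (mul_mem (mul_mem (mul_mem hqa hqb) (inv_mem hqa)) (inv_mem hqb)) ?_ ?_
      · intro h
        exact hqab (mul_inv_eq_iff_eq_mul.1 (mul_inv_eq_one.1 h))
      · rw [hcR]
        exact mul_mem (mul_mem (mul_mem hb hb') (inv_mem hb)) (inv_mem hb')
    exact hq1 (huniq q hq r hr 1 (one_mem _) x hxR (by rw [one_mul, ← hqr])).1
  have hOcomm : (O : Set G).Pairwise Commute := fun a ha b hb _ =>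
    (hcent b (hOS b hb).1 (hOS b hb).2 a (hOS a ha).1)
  set w := O.noncommProd id hOcomm with hw
  have hwS : w ∈ (S : Subgroup G) :=
    Subgroup.noncommProd_mem _ hOcomm fun x hx => (hOS x hx).1
  have hw2 : w ^ 2 = 1 := by
    refine Finset.noncommProd_induction _ _ _ (fun t => t ∈ (S : Subgroup G) ∧ t ^ 2 = 1)
      (fun a b ha hb => ⟨mul_mem ha.1 hb.1, ?_⟩) ⟨one_mem _, one_pow 2⟩ (fun x hx => hOS x hx) |>.2
    rw [Commute.mul_pow (hcent b hb.1 hb.2 a ha.1), ha.2, hb.2, one_mul]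
  have hw1 : w ≠ 1 := by
    intro h
    have hrest : (O.erase z).noncommProd id (hOcomm.mono (by simp)) ∈ R :=
      Subgroup.noncommProd_mem _ _ fun x hx =>
        key x (Finset.mem_of_mem_erase hx) (Finset.ne_of_mem_erase hx)
    have he := Finset.mul_noncommProd_erase O hzO id hOcomm
    rw [← hw, h] at he
    exact hzne (huniq z hzQ _ hrest 1 (one_mem _) 1 (one_mem _) (by rw [mul_one]; exact he)).1
  refine ⟨w, orderOf_eq_prime hw2 hw1, hwS, fun g hg => ?_⟩
  have hcz : ∀ y ∈ (S : Subgroup G), y ^ 2 = 1 → y ∈ centralizer ((S : Subgroup G) : Set G) :=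
    fun y hy h2 s hs => hcent y hy h2 s hs
  have hg2 : (g * w * g⁻¹) ^ 2 = 1 := by rw [conj_pow, hw2, mul_one, mul_inv_cancel]
  obtain ⟨m, hm, hme⟩ := Sylow.conj_eq_normalizer_conj_of_mem_centralizer S w g⁻¹
    (hcz w hwS hw2) (by simpa using hcz _ hg hg2)
  rw [inv_inv] at hme
  rw [hme]
  -- the normaliser fixes the product of the orbit
  have hfix : ∀ m ∈ N, m * w * m⁻¹ = w := by
    intro m hm
    have hO' : O.image (MulAut.conj m) = O := by
      refine Finset.eq_of_subset_of_card_le ?_ (le_of_eq (Finset.card_image_of_injective _ (MulAut.conj m).injective).symm)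
      intro x hx
      obtain ⟨y, hy, rfl⟩ := Finset.mem_image.1 hx
      obtain ⟨m', hm', rfl⟩ := (hmemO y).1 hy
      exact (hmemO _).2 ⟨m * m', mul_mem hm hm', by simp [MulAut.conj_apply, mul_assoc]⟩
    show MulAut.conj m w = w
    rw [hw, Finset.map_noncommProd]
    have key2 : ∀ (T U : Finset G) (hT : (T : Set G).Pairwise Commute)
        (hU : (U : Set G).Pairwise Commute), T = U → T.noncommProd id hT = U.noncommProd id hU := by
      intro T U hT hU h; subst h; rfl
    have hpi : ((O.image (MulAut.conj m) : Finset G) : Set G).Pairwise Commute := by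
      rw [hO']; exact hOcomm
    rw [← key2 _ _ hpi hOcomm hO']
    show Multiset.noncommProd _ _ = Multiset.noncommProd _ _
    congr 1
    rw [Finset.image_val_of_injOn (MulAut.conj m).injective.injOn, Multiset.map_map]
    rfl
  have := hfix m⁻¹ (inv_mem hm)
  rwa [inv_inv] at this

/-- Given the Z*-theorem, such a group is not simple. -/
theorem not_isSimpleGroup_of_quaternion_factor
    (hZ : ∀ (P : Sylow 2 G) (t : G), orderOf t = 2 → t ∈ P →
      (∀ g : G, g * t * g⁻¹ ∈ P → g * t * g⁻¹ = t) →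
      ∃ N : Subgroup G, N.Normal ∧ Odd (Nat.card N) ∧ ∀ g : G, (t * g * t⁻¹ * g⁻¹) ∈ N)
    (S : Sylow 2 G) (Q R : Subgroup G)
    (hQR : IsInternalDirectProduct Q R (S : Subgroup G)) (n : ℕ) (hn : 1 ≤ n)
    (eQ : ↥Q ≃* QuaternionGroup (2 ^ n))
    (hR : ∀ r ∈ R, orderOf r = 2 → ∀ s ∈ R, r * s = s * r) :
    ¬ IsSimpleGroup G := by
  intro hs
  obtain ⟨w, hw, hwS, hiso⟩ := exists_isolated_of_quaternion_factor S Q R hQR n hn eQ hR
  obtain ⟨N, hN, hodd, hc⟩ := hZ S w hw hwS hiso
  rcases hN.eq_bot_or_eq_top with h | h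
  · have hwc : ∀ g : G, g * w = w * g := by
      intro g
      have := hc g
      rw [h, mem_bot] at this
      exact (mul_inv_eq_iff_eq_mul.1 (mul_inv_eq_one.1 this)).symm
    have hZc : (center G).Normal := inferInstance
    rcases hZc.eq_bot_or_eq_top with hb | ht
    · have : w ∈ center G := Subgroup.mem_center_iff.2 hwc
      rw [hb, mem_bot] at this
      rw [this, orderOf_one] at hw
      omega
    · -- then `Q` would be commutative
      have hk : 2 ≤ 2 ^ n :=
        le_trans (by norm_num) (Nat.pow_le_pow_right (by norm_num : 0 < 2) hn)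
      apply quaternion_not_comm hk
      apply eQ.symm.injective
      rw [map_mul, map_mul]
      apply Subtype.ext
      have hm : ((eQ.symm (QuaternionGroup.xa 0) : Q) : G) ∈ center G := ht ▸ mem_top _
      exact Subgroup.mem_center_iff.1 hm _
  · rw [h, Subgroup.card_top] at hodd
    exact absurd (hw ▸ orderOf_dvd_natCard w) hodd.not_two_dvd_nat

end CfsgLib.Amalgams
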